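import Cfsg.Agent.Lib.Core.PPrimeCore

/-! Sims' chain of involutions: a `2`-group `P`, an automorphism `τ` with `|P : P ∩ τ⁻¹ P| = 2` and
no non-trivial subgroup of `P` normalized by `τ⁻¹ P`, `P`, `τ P`. -/

set_option autoImplicit false

namespace Cfsg.Lib.SimsChain

open Subgroup
open scoped commutatorElement

variable {G : Type*} [Group G] {z : ℤ → G} {s : ℕ} {i j i' j' l : ℤ} {x y : G} {K L : Subgroup G}

/-- The subgroup generated by `z i, …, z (j - 1)`. -/
def B (z : ℤ → G) (i j : ℤ) : Subgroup G := closure (z '' Set.Ico i j)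

theorem mem_B (h1 : i ≤ l) (h2 : l < j) : z l ∈ B z i j := subset_closure ⟨l, ⟨h1, h2⟩, rfl⟩

theorem B_le (h : ∀ l, i ≤ l → l < j → z l ∈ K) : B z i j ≤ K :=
  (closure_le _).2 fun _ ⟨l, hl, e⟩ => e ▸ h l hl.1 hl.2

theorem B_mono (h1 : i ≤ i') (h2 : j' ≤ j) : B z i' j' ≤ B z i j :=
  B_le fun _ a b => mem_B (by omega) (by omega)

theorem eq_one_of_mem_B (h : j ≤ i) (hx : x ∈ B z i j) : x = 1 :=
  mem_bot.1 (B_le (K := ⊥) (fun _ a b => by omega) hx)

theorem B_comm (h : ∀ l, i ≤ l → l < j → Commute x (z l)) (hy : y ∈ B z i j) : Commute x y :=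
  (mem_centralizer_singleton_iff.1 (B_le (K := centralizer {x})
    (fun l a b => mem_centralizer_singleton_iff.2 (h l a b).symm) hy)).symm

theorem B_rev (c : ℤ) : B (fun k => z (c - k)) i j = B z (c - j + 1) (c - i + 1) :=
  le_antisymm (B_le fun _ a b => mem_B (by omega) (by omega)) (B_le fun l a b => by
    have := mem_B (z := fun k => z (c - k)) (i := i) (j := j) (l := c - l) (by omega) (by omega)
    simpa using this)

theorem norm_of_two (h : K.relIndex L = 2) (hle : K ≤ L) : L ≤ normalizer (K : Set G) :=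
  (normal_subgroupOf_iff_le_normalizer hle).1 (normal_of_index_eq_two h)

theorem mul_mem_of_two (h : K.relIndex L = 2) (hx : x ∈ L) (hy : y ∈ L) (hx' : x ∉ K)
    (hy' : y ∉ K) : x * y ∈ K :=
  (mul_mem_iff_of_index_two h (a := ⟨x, hx⟩) (b := ⟨y, hy⟩)).2 (iff_of_false hx' hy')

theorem relIndex_eq_two (hle : K ≤ L) {m : ℕ} (hK : Nat.card K = 2 ^ m)
    (hL : Nat.card L = 2 ^ (m + 1)) : K.relIndex L = 2 := by
  have := Lib.Core.card_mul_relIndex hle
  rw [hK, hL, pow_succ] at this
  exact Nat.eq_of_mul_eq_mul_left (by positivity) this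

/-- A chain of involutions. -/
structure Ch (z : ℤ → G) (s : ℕ) : Prop where
  sq : ∀ i, z i * z i = 1
  card : ∀ i (m : ℕ), m ≤ s → Nat.card (B z i (i + m)) = 2 ^ m

namespace Ch

variable (h : Ch z s)
include h

theorem inv (i : ℤ) : (z i)⁻¹ = z i := inv_eq_of_mul_eq_one_right (h.sq i)

theorem rev (c : ℤ) : Ch (fun k => z (c - k)) s :=
  ⟨fun _ => h.sq _, fun i m hm => by
    rw [B_rev, show c - i + 1 = c - (i + m) + 1 + m by ring, h.card _ m hm]⟩

theorem idx_left (h1 : i < j) (h2 : j - i ≤ s) : (B z (i + 1) j).relIndex (B z i j) = 2 := by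
  obtain ⟨m, rfl⟩ : ∃ m : ℕ, j = i + (m + 1 : ℕ) := ⟨(j - i - 1).toNat, by omega⟩
  refine relIndex_eq_two (B_mono (by omega) le_rfl) ?_ (h.card i (m + 1) (by omega))
  rw [show i + (m + 1 : ℕ) = i + 1 + m by omega, h.card _ m (by omega)]

theorem idx_right (h1 : i ≤ j) (h2 : j + 1 - i ≤ s) : (B z i j).relIndex (B z i (j + 1)) = 2 := by
  obtain ⟨m, rfl⟩ : ∃ m : ℕ, j = i + m := ⟨(j - i).toNat, by omega⟩
  refine relIndex_eq_two (B_mono le_rfl (by omega)) (h.card _ m (by omega)) ?_
  rw [show i + m + 1 = i + (m + 1 : ℕ) by omega, h.card _ _ (by omega)]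

theorem not_left (h1 : i < j) (h2 : j - i ≤ s) : z i ∉ B z (i + 1) j := fun e => by
  have := h.idx_left h1 h2
  rw [relIndex_eq_one.2 (B_le fun l a b => by
    rcases a.eq_or_lt with rfl | a
    exacts [e, mem_B (by omega) b])] at this
  omega

theorem not_right (h1 : i ≤ j) (h2 : j + 1 - i ≤ s) : z j ∉ B z i j := fun e => by
  have := h.idx_right h1 h2
  rw [relIndex_eq_one.2 (B_le fun l a b => by
    rcases (show l = j ∨ l < j by omega) with rfl | b
    exacts [e, mem_B a b])] at this
  omega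

theorem norm_left (h1 : i < j) (h2 : j - i ≤ s) : z i ∈ normalizer (B z (i + 1) j : Set G) :=
  norm_of_two (h.idx_left h1 h2) (B_mono (by omega) le_rfl) (mem_B le_rfl h1)

theorem norm_left' (h0 : i' = i + 1) (h1 : i < j) (h2 : j - i ≤ s) :
    z i ∈ normalizer (B z i' j : Set G) := h0 ▸ h.norm_left h1 h2

theorem not_left' (h0 : i' = i + 1) (h1 : i < j) (h2 : j - i ≤ s) : z i ∉ B z i' j :=
  h0 ▸ h.not_left h1 h2

theorem norm_right (h1 : i ≤ j) (h2 : j + 1 - i ≤ s) : z j ∈ normalizer (B z i j : Set G) :=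
  norm_of_two (h.idx_right h1 h2) (B_mono le_rfl (by omega)) (mem_B h1 (by omega))

theorem dec_left (h2 : j - i ≤ s) (hx : x ∈ B z i j) :
    x ∈ B z (i + 1) j ∨ z i * x ∈ B z (i + 1) j := by
  rcases le_or_gt j i with h1 | h1
  · exact Or.inl (eq_one_of_mem_B h1 hx ▸ one_mem _)
  · exact or_iff_not_imp_left.2 fun e =>
      mul_mem_of_two (h.idx_left h1 h2) (mem_B le_rfl h1) hx (h.not_left h1 h2) e

theorem dec_right (h2 : j + 1 - i ≤ s) (hx : x ∈ B z i (j + 1)) :
    x ∈ B z i j ∨ x * z j ∈ B z i j := by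
  rcases lt_or_ge j i with h1 | h1
  · exact Or.inl (eq_one_of_mem_B (by omega) hx ▸ one_mem _)
  · exact or_iff_not_imp_left.2 fun e =>
      mul_mem_of_two (h.idx_right h1 h2) hx (mem_B h1 (by omega)) e (h.not_right h1 h2)

theorem mem_one (hs : 1 ≤ s) (h1 : j = i + 1) (hx : x ∈ B z i j) : x = 1 ∨ x = z i :=
  (h.dec_left (by omega) hx).imp (eq_one_of_mem_B (by omega)) fun e => by
    rw [← h.inv]; exact eq_inv_of_mul_eq_one_right (eq_one_of_mem_B (by omega) e)

theorem mem_two (hs : 2 ≤ s) (h0 : i' = i + 1) (h1 : j = i + 2) (hx : x ∈ B z i j) :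
    x = 1 ∨ x = z i ∨ x = z i' ∨ x = z i * z i' := by
  subst h0
  rcases h.dec_left (by omega) hx with e | e <;> rcases h.mem_one (by omega) (by omega) e with e | e
  · exact Or.inl e
  · exact Or.inr (Or.inr (Or.inl e))
  · exact Or.inr (Or.inl (by rw [← h.inv]; exact eq_inv_of_mul_eq_one_right e))
  · exact Or.inr (Or.inr (Or.inr (by rw [← e, ← mul_assoc, h.sq, one_mul])))

theorem inter (h1 : i ≤ i') (h2 : j ≤ j') (h3 : j' - i ≤ s) (hx : x ∈ B z i j)
    (hx' : x ∈ B z i' j') : x ∈ B z i' j := by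
  induction i', h1 using Int.leInduction with
  | base => exact hx
  | succ k hk ih =>
    have := ih (B_mono (by omega) le_rfl hx')
    rcases h.dec_left (by omega) this with e | e
    · exact e
    · rcases le_or_gt j k with a | a
      · exact eq_one_of_mem_B a this ▸ one_mem _
      · exact absurd (by simpa using mul_mem (B_mono le_rfl h2 e) (inv_mem hx'))
          (h.not_left (i := k) (j := j') (by omega) (by omega))

theorem comm_mem (h1 : i < j) (h2 : j + 1 - i ≤ s) : ⁅z i, z j⁆ ∈ B z (i + 1) j := by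
  refine h.inter (by omega) (by omega : j ≤ j + 1) h2 ?_ ?_
  · rw [commutatorElement_def, mul_assoc, mul_assoc, ← mul_assoc (z j)]
    exact mul_mem (mem_B le_rfl h1) ((mem_normalizer_iff.1 (h.norm_right h1.le h2) _).1
      (inv_mem (mem_B le_rfl h1)))
  · exact mul_mem ((mem_normalizer_iff.1 (h.norm_left (by omega) h2) _).1
      (mem_B (by omega) (by omega))) (inv_mem (mem_B (by omega) (by omega)))

theorem left {L : ℤ} (C : ∀ i j, i - j < L → j - i < L → Commute (z i) (z j))
    (N : ∀ i, ¬ Commute (z i) (z (i + L))) (h1 : 1 ≤ L) (h2 : L + 1 ≤ s) :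
    ⁅z 0, z L⁆ ∈ B z (s - L) L := by
  suffices ∀ m, 1 ≤ m → m ≤ s - L → ⁅z 0, z L⁆ ∈ B z m L from this _ (by omega) le_rfl
  intro m hm
  induction m, hm using Int.leInduction with
  | base => exact fun _ => by simpa using h.comm_mem (i := 0) h1 (by omega)
  | succ m hm ih =>
    intro h3
    have hc := ih (by omega)
    rcases le_or_gt L m with a | a
    · exact eq_one_of_mem_B a hc ▸ one_mem _
    refine (h.dec_left (by omega) hc).resolve_right fun e => N m ?_
    have c1 : Commute (z (m + L)) (z m * ⁅z 0, z L⁆) :=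
      B_comm (fun l a b => C _ _ (by omega) (by omega)) e
    have c2 : Commute (z L) ⁅z 0, z (m + L)⁆ := B_comm (fun l a b => C _ _ (by omega) (by omega))
      (h.comm_mem (i := 0) (j := m + L) (by omega) (by omega))
    have c3 : Commute (z (m + L)) (z L) := C _ _ (by omega) (by omega)
    have c4 : Commute (z (m + L)) ⁅z 0, z L⁆ := by
      have e1 : z (m + L) * z 0 * (z (m + L))⁻¹ = z 0 * ⁅z 0, z (m + L)⁆ := by
        rw [commutatorElement_def, h.inv 0, ← mul_assoc, ← mul_assoc, ← mul_assoc, h.sq, one_mul]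
      rw [Commute, SemiconjBy, ← mul_inv_eq_iff_eq_mul, conjugate_commutatorElement, e1,
        mul_inv_eq_iff_eq_mul.2 c3.eq, commutatorElement_def (z 0 * _), mul_assoc (z 0), ← c2.eq]
      group
    have := (c1.mul_right c4.inv_right).symm
    rwa [mul_inv_cancel_right] at this

theorem bound {L : ℤ} (C : ∀ i j, i - j < L → j - i < L → Commute (z i) (z j))
    (N : ∀ i, ¬ Commute (z i) (z (i + L))) (h1 : 1 ≤ L) (h2 : L + 1 ≤ s) : 2 * s ≤ 3 * L := by
  have a := h.left C N h1 h2
  have b := (h.rev L).left (L := L) (fun i j p q => C _ _ (by omega) (by omega))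
    (fun i e => N (L - (i + L)) (by
      rw [show L - (i + L) + L = L - i by ring]; exact e.symm)) h1 h2
  simp only [B_rev, sub_zero, sub_self] at b
  rw [← inv_mem_iff, commutatorElement_inv] at b
  by_contra e
  exact N 0 (by
    rw [zero_add, ← commutatorElement_eq_one_iff_commute]
    exact eq_one_of_mem_B (by omega) (h.inter (by omega) (by omega) (by omega) b a))

theorem sq_B {L : ℤ} (C : ∀ i j, i - j < L → j - i < L → Commute (z i) (z j)) (h2 : j - i ≤ L)
    (hx : x ∈ B z i j) : x * x = 1 := by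
  induction hx using closure_induction with
  | mem _ e => obtain ⟨l, -, rfl⟩ := e; exact h.sq l
  | one => simp
  | mul a b ha hb p q =>
    have : Commute a b := B_comm (fun l c d => (B_comm (fun k e f =>
      C _ _ (by omega) (by omega)) ha).symm) hb
    rw [mul_assoc, ← mul_assoc b, ← this.eq, mul_assoc, q, mul_one, p]
  | inv a _ p => rw [← mul_inv_rev, p, inv_one]

theorem inv_six (C : ∀ i j, i - j < 4 → j - i < 4 → Commute (z i) (z j))
    (N : ∀ i, ¬ Commute (z i) (z (i + 4))) (hs : 5 ≤ s) (hx : x ∈ B z i (i + 5)) (h2 : x * x = 1) :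
    x ∈ B z i (i + 4) ∨ x ∈ B z (i + 1) (i + 5) := by
  by_contra! e
  have e1 := (h.dec_left (by omega) hx).resolve_left e.2
  rw [show i + 5 = i + 4 + 1 by ring] at e1
  have e2 := (h.dec_right (by omega) e1).resolve_left fun k => e.1 (by
    have := mul_mem (mem_B (z := z) (i := i) (j := i + 4) le_rfl (by omega))
      (B_mono (by omega) le_rfl k)
    rwa [← mul_assoc, h.sq, one_mul] at this)
  obtain ⟨v, hv⟩ : ∃ v, v = z i * x * z (i + 4) := ⟨_, rfl⟩
  rw [← hv] at e2
  have c1 : Commute (z i) v := B_comm (fun l a b => C _ _ (by omega) (by omega)) e2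
  have c2 : Commute (z (i + 4)) v := B_comm (fun l a b => C _ _ (by omega) (by omega)) e2
  have c3 := h.sq_B C (by omega) e2
  have hx' : x = v * (z i * z (i + 4)) := by
    rw [← mul_assoc, ← c1.eq, hv]
    simp only [← mul_assoc, h.sq, one_mul]
    rw [mul_assoc, h.sq, mul_one]
  rw [hx', ← pow_two, (c1.symm.mul_right c2.symm).mul_pow, pow_two, c3, one_mul, pow_two] at h2
  apply N i
  rw [Commute, SemiconjBy, eq_inv_of_mul_eq_one_left h2, mul_inv_rev, h.inv, h.inv]

omit h in
theorem norm_swap [Finite G] {A A' Q : Subgroup G} {g w : G} (h1 : A' ≤ Q) (hw : w ∈ A') (hw' : w ∉ A)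
    (h2 : ∀ x ∈ A', x * x = 1) (h3 : ∀ x ∈ Q, x * x = 1 → x ∈ A ∨ x ∈ A')
    (hQ : g ∈ normalizer (Q : Set G)) (hA : g ∈ normalizer (A : Set G)) :
    g ∈ normalizer (A' : Set G) := by
  have key : ∀ x ∈ A', x ∉ A → g * x * g⁻¹ ∈ A' := fun x hx hx' =>
    (h3 _ ((mem_normalizer_iff.1 hQ x).1 (h1 hx)) (by
      rw [conj_mul, h2 x hx, mul_one, mul_inv_cancel])).resolve_left
      fun e => hx' ((mem_normalizer_iff.1 hA x).2 e)
  refine mem_normalizer_fintype fun x hx => ?_
  by_cases e : x ∈ A
  · have := mul_mem (key _ (mul_mem hx hw) fun k => hw' ((mul_mem_cancel_left e).1 k))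
      (inv_mem (key w hw hw'))
    simpa [mul_assoc] using this
  · exact key x hx e

theorem classify [Finite G] (sh : ∀ i j k, Commute (z i) (z j) → Commute (z (i + k)) (z (j + k)))
    (nn : ∀ N ≤ B z 0 s, (∀ l : ℤ, -1 ≤ l → l ≤ s → z l ∈ normalizer (N : Set G)) → N = ⊥)
    (hs : 2 ≤ s) : ∃ L : ℤ, (∀ i j, i - j < L → j - i < L → Commute (z i) (z j)) ∧
      (∀ i, ¬ Commute (z i) (z (i + L))) ∧ (s = 2 ∧ L = 2 ∨ s = 3 ∧ L = 2 ∨ s = 4 ∧ L = 3) := by
  classical
  have up : ∀ L : ℤ, (∀ i j, i - j < L → j - i < L → Commute (z i) (z j)) → 2 * L ≤ s + 2 := by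
    intro L C
    by_contra e
    have := nn (B z (max 0 (s - L + 1)) (max 0 (s - L + 1) + 1)) (B_mono (by omega) (by omega))
      fun l a b => centralizer_le_normalizer _ fun y hy =>
        (B_comm (fun k c d => C _ _ (by omega) (by omega)) hy).symm
    have h1 := h.card (max 0 (s - L + 1)) 1 (by omega)
    rw [Nat.cast_one, this] at h1
    simp at h1
  have ex : ∃ L : ℕ, ¬ ∀ i j : ℤ, i - j < L + 1 → j - i < L + 1 → Commute (z i) (z j) :=
    ⟨s + 2, fun C => by have := up _ C; omega⟩
  obtain ⟨L, hL, C⟩ : ∃ L : ℕ, (¬ ∀ i j : ℤ, i - j < L + 1 → j - i < L + 1 → Commute (z i) (z j)) ∧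
      ∀ i j : ℤ, i - j < L → j - i < L → Commute (z i) (z j) := by
    refine ⟨Nat.find ex, Nat.find_spec ex, ?_⟩
    rcases e : Nat.find ex with _ | k
    · intro i j a b; omega
    · simpa using Nat.find_min ex (m := k) (by omega)
  have N : ∀ i, ¬ Commute (z i) (z (i + L)) := fun i e => hL fun a b p q => by
    rcases (show a - b = L ∨ b - a = L ∨ (a - b < L ∧ b - a < L) by omega) with r | r | r
    · have := sh _ _ (b - i) e
      rw [show i + (b - i) = b by ring, show i + L + (b - i) = a by omega] at this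
      exact this.symm
    · have := sh _ _ (a - i) e
      rwa [show i + (a - i) = a by ring, show i + L + (a - i) = b by omega] at this
    · exact C _ _ r.1 r.2
  have h1 : 1 ≤ (L : ℤ) := by
    by_contra e
    exact N 0 (by rw [show (0 : ℤ) + L = 0 by omega])
  have h2 := up _ C
  have h3 := h.bound C N h1
  refine ⟨L, C, N, ?_⟩
  by_contra e
  obtain ⟨rfl, rfl⟩ : s = 6 ∧ L = 4 := by omega
  have := nn (B z 1 5) (B_mono (by omega) (by omega)) fun l a b => by
    rcases (show l = -1 ∨ l = 0 ∨ (1 ≤ l ∧ l < 5) ∨ l = 5 ∨ l = 6 by omega) with r | r | r | r | r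
    · subst r
      exact norm_swap (A := B z 0 4) (Q := B z 0 5) (w := z 4) (B_mono (by omega) le_rfl)
        (mem_B (by omega) (by omega)) (h.not_right (by omega) (by omega))
        (fun x hx => h.sq_B C (by omega) hx) (fun x a b => by simpa using h.inv_six (i := 0) C N (by omega) (by simpa using a) b)
        (h.norm_left' (by omega) (by omega) (by omega)) (h.norm_left' (by omega) (by omega) (by omega))
    · subst r; exact h.norm_left' (by omega) (by omega) (by omega)
    · exact le_normalizer (mem_B r.1 r.2)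
    · subst r; exact h.norm_right (by omega) (by omega)
    · subst r
      exact norm_swap (A := B z 2 6) (Q := B z 1 6) (w := z 1) (B_mono le_rfl (by omega))
        (mem_B (by omega) (by omega)) (h.not_left' (by omega) (by omega) (by omega))
        (fun x hx => h.sq_B C (by omega) hx)
        (fun x a b => by simpa using (h.inv_six (i := 1) C N (by omega) (by simpa using a) b).symm)
        (h.norm_right (by omega) (by omega)) (h.norm_right (by omega) (by omega))
  have h4 := h.card 1 4 (by omega)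
  rw [show (1 : ℤ) + (4 : ℕ) = 5 by rfl, this] at h4
  simp at h4

end Ch

theorem map_B (τ : MulAut G) (w : G) (k : ℤ) :
    (B (fun i => (τ ^ i) w) i j).map (τ ^ k).toMonoidHom = B (fun i => (τ ^ i) w) (i + k) (j + k) := by
  rw [B, MonoidHom.map_closure, B, Set.image_image]
  congr 1
  ext x
  constructor
  · rintro ⟨l, hl, rfl⟩
    exact ⟨l + k, ⟨by have := hl.1; omega, by have := hl.2; omega⟩, by simp [add_comm l, zpow_add]⟩
  · rintro ⟨l, hl, rfl⟩
    exact ⟨l - k, ⟨by have := hl.1; omega, by have := hl.2; omega⟩, by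
      simp [← MulAut.mul_apply, ← zpow_add]⟩

/-- The descending chain `P ∩ τ⁻¹ P ∩ ⋯ ∩ τ⁻ᵏ P`. -/
def W (P : Subgroup G) (τ : MulAut G) : ℕ → Subgroup G
  | 0 => P
  | k + 1 => P ⊓ (W P τ k).comap τ.toMonoidHom

variable {P : Subgroup G} {τ : MulAut G}

theorem W_le (k : ℕ) : W P τ k ≤ P := by
  cases k
  exacts [le_rfl, inf_le_left]

theorem W_succ_le (k : ℕ) : W P τ (k + 1) ≤ W P τ k := by
  induction k with
  | zero => exact inf_le_left
  | succ k ih => exact inf_le_inf_left _ (comap_mono ih)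

theorem W_map_le (k : ℕ) : (W P τ (k + 1)).map τ.toMonoidHom ≤ W P τ k :=
  map_le_iff_le_comap.2 inf_le_right

theorem W_idx [Finite G] (h : (W P τ 1).relIndex P = 2) (k : ℕ) :
    (W P τ (k + 1)).relIndex (W P τ k) ≤ 2 := by
  induction k with
  | zero => exact h.le
  | succ k ih =>
    have e : W P τ (k + 2) = (W P τ (k + 1)).comap τ.toMonoidHom ⊓ W P τ (k + 1) :=
      le_antisymm (le_inf inf_le_right (W_succ_le _)) (le_inf (inf_le_right.trans (W_le _)) inf_le_left)
    rw [e, inf_relIndex_right]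
    refine (relIndex_le_of_le_right (K := W P τ (k + 1)) (L := (W P τ k).comap τ.toMonoidHom)
      inf_le_right index_ne_zero_of_finite).trans ?_
    rwa [relIndex_comap, map_comap_eq_self_of_surjective τ.surjective]

theorem card_map' (K : Subgroup G) : Nat.card (K.map τ.toMonoidHom) = Nat.card K :=
  card_map_of_injective τ.injective

theorem W_sup [Finite G] {k m : ℕ} (h0 : Nat.card (W P τ k) = 2 ^ (m + 2))
    (h1 : Nat.card (W P τ (k + 1)) = 2 ^ (m + 1)) (h2 : Nat.card (W P τ (k + 2)) = 2 ^ m) :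
    W P τ k = W P τ (k + 1) ⊔ (W P τ (k + 1)).map τ.toMonoidHom := by
  refine le_antisymm (fun x hx => ?_) (sup_le (W_succ_le k) (W_map_le k))
  have : ¬ (W P τ (k + 1)).map τ.toMonoidHom ≤ W P τ (k + 1) := fun e => by
    have : W P τ (k + 1) ≤ W P τ (k + 2) := le_inf (W_le _) (map_le_iff_le_comap.1 e)
    have := card_le_of_le this
    rw [h1, h2] at this
    exact absurd this (by simp [pow_succ])
  obtain ⟨y, hy, hy'⟩ := SetLike.not_le_iff_exists.1 this
  by_cases e : x ∈ W P τ (k + 1)
  · exact mem_sup_left e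
  · simpa using mul_mem (mem_sup_left (mul_mem_of_two (relIndex_eq_two (W_succ_le k) h1 h0) hx
      (W_map_le k hy) e hy')) (inv_mem (mem_sup_right hy))

theorem W_card [Finite G] (hP : Nat.card P = 2 ^ s) (h : (W P τ 1).relIndex P = 2)
    (nn : ∀ N ≤ P, P ≤ normalizer (N : Set G) → N.map τ.toMonoidHom = N → N = ⊥) (k : ℕ)
    (hk : k ≤ s) : Nat.card (W P τ k) = 2 ^ (s - k) := by
  induction k using Nat.strong_induction_on with
  | _ k ih =>
  rcases k with _ | k
  · exact hP
  have c := ih k (by omega) (by omega)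
  have e := Lib.Core.card_mul_relIndex (W_succ_le (P := P) (τ := τ) k)
  have e1 := W_idx h k
  have e0 : (W P τ (k + 1)).relIndex (W P τ k) ≠ 0 := index_ne_zero_of_finite
  rcases (show (W P τ (k + 1)).relIndex (W P τ k) = 1 ∨ (W P τ (k + 1)).relIndex (W P τ k) = 2
    by omega) with e2 | e2
  · exfalso
    rw [relIndex_eq_one] at e2
    have hN : (W P τ k).map τ.toMonoidHom = W P τ k :=
      Lib.Core.eq_of_le_of_card_eq ((map_mono e2).trans (W_map_le k)) (card_map' _)
    rcases k with _ | k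
    · exact absurd ((relIndex_eq_one.2 e2).symm.trans h) (by decide)
    have dn : ∀ d j, j + d = k → W P τ j ≤ normalizer (W P τ (k + 1) : Set G) := by
      intro d
      induction d with
      | zero =>
        rintro j rfl
        exact norm_of_two (relIndex_eq_two (W_succ_le _) c (by
          rw [ih _ (by omega) (by omega)]; congr 1; omega)) (W_succ_le _)
      | succ d ihd =>
        intro j hj
        have := ihd (j + 1) (by omega)
        rw [W_sup (k := j) (m := s - (j + 2)) (by rw [ih _ (by omega) (by omega)]; congr 1; omega)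
          (by rw [ih _ (by omega) (by omega)]; congr 1; omega) (ih _ (by omega) (by omega))]
        refine sup_le this ((map_mono this).trans ?_)
        nth_rewrite 2 [← hN]
        exact le_normalizer_map _
    rw [nn _ (W_le _) (dn k 0 (by omega)) hN, card_bot] at c
    exact absurd c.symm (Nat.one_lt_two_pow (by omega)).ne'
  · rw [c, e2, show s - k = s - (k + 1) + 1 by omega, pow_succ] at e
    omega

theorem exists_chain [Finite G] (hP : Nat.card P = 2 ^ s) (h : (W P τ 1).relIndex P = 2)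
    (nn : ∀ N ≤ P, P ≤ normalizer (N : Set G) → N.map τ.toMonoidHom = N → N = ⊥) :
    ∃ w : G, Ch (fun i => (τ ^ i) w) s ∧ B (fun i => (τ ^ i) w) 0 s = P ∧
      B (fun i => (τ ^ i) w) 0 (s - 1) = W P τ 1 := by
  have c := W_card hP h nn
  have hs : 1 ≤ s := by
    by_contra e
    have := Lib.Core.card_mul_relIndex (W_le (P := P) (τ := τ) 1)
    rw [h, hP, show s = 0 by omega] at this
    omega
  have c1 := c (s - 1) (by omega)
  rw [show s - (s - 1) = 1 by omega, pow_one] at c1
  have : IsCyclic (W P τ (s - 1)) := isCyclic_of_prime_card c1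
  obtain ⟨w, hw⟩ := (Subgroup.isCyclic_iff_exists_zpowers_eq_top _).1 this
  have hw2 : w * w = 1 := by
    rw [← pow_two, ← c1, ← hw, Nat.card_zpowers, pow_orderOf_eq_one]
  have key : ∀ m : ℕ, m ≤ s → B (fun i => (τ ^ i) w) 0 m = W P τ (s - m) := by
    intro m
    induction m with
    | zero =>
      intro _
      have := c s le_rfl
      rw [Nat.sub_self, pow_zero, card_eq_one] at this
      rw [Nat.sub_zero, this, eq_bot_iff]
      exact B_le fun l a b => by omega
    | succ m ih =>
      intro hm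
      rcases m with _ | m
      · rw [← hw]
        refine le_antisymm (B_le fun l a b => ?_) (zpowers_le.2 ?_)
        · simp [show l = 0 by omega]
        · simpa using mem_B (z := fun i => (τ ^ i) w) (i := 0) (j := 1) (l := 0) le_rfl one_pos
      rw [W_sup (k := s - (m + 2)) (m := m) (by rw [c _ (by omega)]; congr 1; omega)
        (by rw [c _ (by omega)]; congr 1; omega) (by rw [c _ (by omega)]; congr 1; omega),
        show s - (m + 2) + 1 = s - (m + 1) by omega, ← ih (by omega)]
      have := map_B (i := 0) (j := (m + 1 : ℕ)) τ w 1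
      rw [zpow_one] at this
      rw [this]
      refine le_antisymm (B_le fun l a b => ?_) (sup_le (B_mono le_rfl (by omega))
        (B_mono (by omega) (by omega)))
      rcases a.eq_or_lt with rfl | a
      exacts [mem_sup_left (mem_B le_rfl (by omega)), mem_sup_right (mem_B (by omega) (by omega))]
  refine ⟨w, ⟨fun i => by rw [← map_mul, hw2, map_one], fun i m hm => ?_⟩,
    by rw [key s le_rfl, Nat.sub_self]; rfl, by
      rw [show (s : ℤ) - 1 = (s - 1 : ℕ) by omega, key _ (by omega), show s - (s - 1) = 1 by omega]⟩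
  have := map_B (i := 0) (j := m) τ w i
  rw [zero_add, add_comm] at this
  rw [← this, card_map', key m hm, c _ (by omega)]
  congr 1
  omega

end Cfsg.Lib.SimsChain
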