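import Cfsg.Agent.Lib.Amalgam.SimsChain
import Cfsg.Agent.Lib.Amalgam.S3Iso

/-! Groups that are dihedral of twice odd order modulo an elementary abelian normal `2`-subgroup. -/

set_option autoImplicit false

namespace Cfsg.Lib.SimsChain

open Subgroup DihedralGroup Cfsg.Lib.Core
open scoped commutatorElement

variable {Γ : Type*} [Group Γ] {n : ℕ} {π : Γ →* DihedralGroup n} {a b : Γ} {i : ZMod n}

theorem relIndex_sup_zpowers (N : Subgroup Γ) [N.Normal] (x : Γ) :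
    N.relIndex (N ⊔ zpowers x) = orderOf (x : Γ ⧸ N) := by
  rw [relIndex_sup_left]
  nth_rewrite 1 [← QuotientGroup.ker_mk' N]
  rw [relIndex_ker, MonoidHom.map_zpowers, Nat.card_zpowers]
  rfl

theorem pi_mul (ha : π a = sr (i - 1)) (hb : π b = sr i) : π (a * b) = r 1 := by
  simp [ha, hb]

theorem exists_pow [NeZero n] {u x : Γ} (hu : π u = r 1) {j : ZMod n} (hx : π x = r j) :
    ∃ k : ℕ, x * (u ^ k)⁻¹ ∈ π.ker :=
  ⟨j.val, by rw [MonoidHom.mem_ker, map_mul, map_inv, map_pow, hu, hx, r_one_pow]; simp⟩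

theorem gen_top [NeZero n] (ha : π a = sr (i - 1)) (hb : π b = sr i) {K : Subgroup Γ}
    (hK : π.ker ≤ K) (h1 : a ∈ K) (h2 : b ∈ K) : K = ⊤ := by
  have key : ∀ x j, π x = r j → x ∈ K := fun x j hx => by
    obtain ⟨k, hk⟩ := exists_pow (pi_mul ha hb) hx
    simpa using mul_mem (hK hk) (pow_mem (mul_mem h1 h2) k)
  rw [eq_top_iff]
  intro x _
  rcases e : π x with j | j
  · exact key x j e
  · simpa using mul_mem (inv_mem h2) (key (b * x) (j - i) (by simp [hb, e]))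

theorem exists_conj_ab (ho : Odd n) (ha : π a = sr (i - 1)) (hb : π b = sr i) :
    ∃ g, g * a * g⁻¹ * b⁻¹ ∈ π.ker := by
  obtain ⟨m, rfl⟩ := ho
  refine ⟨(a * b) ^ m, ?_⟩
  have : ((2 * m + 1 : ℕ) : ZMod (2 * m + 1)) = 0 := ZMod.natCast_self _
  rw [MonoidHom.mem_ker]
  simp only [map_mul, map_inv, map_pow, ha, hb, sr_mul_sr, sub_sub_cancel, r_one_pow, r_mul_sr,
    inv_r, sr_mul_r, inv_sr, one_def, r.injEq]
  push_cast at this
  linear_combination this

/-- The setting: `Γ / Q` dihedral of order `2 n`, `n` odd, generated by the involutions `a`, `b`. -/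
structure DH (π : Γ →* DihedralGroup n) (a b : Γ) (i : ZMod n) : Prop where
  surj : Function.Surjective π
  odd : Odd n
  sq : ∀ q ∈ π.ker, q * q = 1
  a2 : a * a = 1
  b2 : b * b = 1
  pa : π a = sr (i - 1)
  pb : π b = sr i

namespace DH

variable [Finite Γ] (h : DH π a b i)
include h

theorem nz : NeZero n := ⟨by have := h.odd; rintro rfl; simp at this⟩

theorem inj {q : Γ} (hq : q ∈ π.ker) (ho : q ∈ oddCore Γ) : q = 1 := by
  obtain ⟨k, hk⟩ := odd_card_oddCore Γ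
  have := pow_card_eq_one' (x := (⟨q, ho⟩ : oddCore Γ))
  rw [hk, Subtype.ext_iff, coe_pow, pow_succ, pow_mul, pow_two, h.sq q hq] at this
  simpa using this

omit [Finite Γ] in
theorem ker_le : π.ker ≤ centralizer (π.ker : Set Γ) := Amalgam.comm_of_sq h.sq

theorem O_le : oddCore Γ ≤ centralizer (π.ker : Set Γ) := fun x hx q hq =>
  commute_of_normal_of_disjoint π.ker (oddCore Γ) inferInstance inferInstance
    (disjoint_def.2 fun a b => h.inj a b) q x hq hx

theorem pow_mem {k : ℕ} (hk : (a * b) ^ k ∈ centralizer (π.ker : Set Γ)) :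
    (a * b) ^ k ∈ π.ker ⊔ oddCore Γ := by
  have := h.nz
  set w := (a * b) ^ k with hw
  have h1 : w ^ n ∈ π.ker := by
    rw [MonoidHom.mem_ker, hw, map_pow, map_pow, pi_mul h.pa h.pb, ← pow_mul, mul_comm, pow_mul,
      r_one_pow_n, one_pow]
  have h2 : (w ^ 2) ^ n = 1 := by rw [← pow_mul, mul_comm, pow_mul, pow_two, h.sq _ h1]
  have ia : a⁻¹ = a := inv_eq_of_mul_eq_one_right h.a2
  have ib : b⁻¹ = b := inv_eq_of_mul_eq_one_right h.b2
  have key : ∀ g, g * (a * b) * g⁻¹ = (a * b)⁻¹ → g ∈ normalizer (zpowers (w ^ 2) : Set Γ) :=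
    fun g hg => mem_normalizer_fintype fun x ⟨j, hj⟩ => ⟨-j, by
      rw [← hj]
      simp only [← conj_zpow, ← conj_pow, hw, hg, inv_pow, inv_zpow', zpow_neg]⟩
  have h3 : (zpowers (w ^ 2)).Normal := normalizer_eq_top_iff.1 (gen_top h.pa h.pb
    (fun q hq => centralizer_le_normalizer _ fun x hx =>
      ((zpowers_le.2 (Subgroup.pow_mem _ hk 2)) hx q hq).symm)
    (key a (by rw [mul_inv_rev, ia, ib, ← mul_assoc, h.a2, one_mul]))
    (key b (by rw [mul_inv_rev, ia, ib, mul_assoc, mul_assoc, h.b2, mul_one])))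
  have h4 := le_oddCore h3 (by
    rw [Nat.card_zpowers]; exact Odd.of_dvd_nat h.odd (orderOf_dvd_of_pow_eq_one h2))
  obtain ⟨m, hm⟩ := h.odd
  have : w = w ^ n * ((w ^ 2) ^ m)⁻¹ := by
    rw [hm, ← pow_mul w 2, pow_succ' w (2 * m), mul_inv_cancel_right]
  rw [this]
  exact mul_mem (mem_sup_left h1) (inv_mem (mem_sup_right (h4 (Subgroup.pow_mem _ (mem_zpowers _) m))))

theorem mem_R {x : Γ} : x ∈ π.ker ⊔ zpowers (a * b) ↔ ∃ j, π x = r j := by
  have := h.nz
  constructor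
  · intro hx
    obtain ⟨j, hj⟩ : π x ∈ zpowers (r 1 : DihedralGroup n) :=
      (sup_le (fun q hq => by simp [MonoidHom.mem_ker.1 hq]) (zpowers_le.2 (by
        simp [← pi_mul h.pa h.pb])) : π.ker ⊔ zpowers (a * b) ≤ (zpowers (r 1)).comap π) hx
    exact ⟨_, hj.symm.trans (r_one_zpow j)⟩
  · rintro ⟨j, hj⟩
    obtain ⟨k, hk⟩ := exists_pow (pi_mul h.pa h.pb) hj
    simpa using mul_mem (mem_sup_left hk) (mem_sup_right (Subgroup.pow_mem _ (mem_zpowers (a * b)) k))

theorem index_R : (π.ker ⊔ zpowers (a * b)).index = 2 := by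
  refine index_eq_two_iff.2 ⟨b, fun x => ?_⟩
  rw [h.mem_R, h.mem_R]
  rcases e : π x with j | j <;> simp [e, h.pb]

theorem O_le_R : oddCore Γ ≤ π.ker ⊔ zpowers (a * b) := fun x hx => by
  rw [h.mem_R]
  rcases e : π x with j | j
  · exact ⟨j, rfl⟩
  · obtain ⟨k, hk⟩ := odd_card_oddCore Γ
    have := pow_card_eq_one' (x := (⟨x, hx⟩ : oddCore Γ))
    rw [hk, Subtype.ext_iff, coe_pow] at this
    have := congrArg π this
    rw [map_pow, e, pow_succ, pow_mul, pow_two, sr_mul_self, one_pow, one_mul, OneMemClass.coe_one,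
      map_one, one_def] at this
    cases this

theorem inf_le : centralizer (π.ker : Set Γ) ⊓ (π.ker ⊔ zpowers (a * b)) ≤ π.ker ⊔ oddCore Γ := by
  have := h.nz
  rintro x ⟨h1, h2⟩
  obtain ⟨j, hj⟩ := h.mem_R.1 h2
  obtain ⟨k, hk⟩ := exists_pow (pi_mul h.pa h.pb) hj
  simpa using mul_mem (mem_sup_left hk)
    (h.pow_mem (k := k) (by simpa using mul_mem (inv_mem (h.ker_le hk)) h1))

theorem card_bar : Nat.card (π.ker.map (QuotientGroup.mk' (oddCore Γ))) = Nat.card π.ker := by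
  rw [← relIndex_ker, QuotientGroup.ker_mk', ← inf_relIndex_right,
    show oddCore Γ ⊓ π.ker = ⊥ from eq_bot_iff.2 fun x hx => h.inj hx.2 hx.1, relIndex_bot_left]

omit h in
theorem index_bar (K : Subgroup Γ) :
    (K.map (QuotientGroup.mk' (oddCore Γ))).index = (K ⊔ oddCore Γ).index := by
  rw [index_map, QuotientGroup.ker_mk', MonoidHom.range_eq_top.2 (QuotientGroup.mk'_surjective _),
    index_top, mul_one]

omit h in
theorem mem_bar {K : Subgroup Γ} {x : Γ} (hx : x ∈ K ⊔ oddCore Γ) :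
    (x : Γ ⧸ oddCore Γ) ∈ K.map (QuotientGroup.mk' (oddCore Γ)) := by
  rw [← QuotientGroup.ker_mk' (oddCore Γ), ← comap_map_eq] at hx
  exact hx

theorem four (hQ : Nat.card π.ker = 2) :
    Nonempty (Γ ⧸ oddCore Γ ≃* Multiplicative (ZMod 2) × Multiplicative (ZMod 2)) := by
  have hc : ∀ x, x ∈ centralizer (π.ker : Set Γ) := fun x =>
    Amalgam.cent_of_card_two (H := ⊤) hQ (normalizer_eq_top _).ge trivial
  have e : π.ker ⊔ oddCore Γ = π.ker ⊔ zpowers (a * b) :=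
    le_antisymm (sup_le le_sup_left h.O_le_R) fun x hx => h.inf_le ⟨hc x, hx⟩
  have h1 := card_mul_index (π.ker.map (QuotientGroup.mk' (oddCore Γ)))
  rw [h.card_bar, index_bar, e, h.index_R, hQ] at h1
  have h2 : ∀ x : Γ ⧸ oddCore Γ, x ^ 2 = 1 := by
    intro x
    obtain ⟨x, rfl⟩ := QuotientGroup.mk_surjective x
    by_cases hx : x ∈ π.ker ⊔ zpowers (a * b)
    · obtain ⟨q, hq, e'⟩ := mem_bar (e ▸ hx)
      rw [← e', ← map_pow, pow_two, h.sq q hq, map_one]
    · have : x * b ∈ π.ker ⊔ zpowers (a * b) :=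
        (mul_mem_iff_of_index_two h.index_R).2 (iff_of_false hx (by simp [h.mem_R, h.pb]))
      obtain ⟨q, hq, e'⟩ := mem_bar (e ▸ this)
      rw [QuotientGroup.mk_mul, ← mul_inv_eq_iff_eq_mul] at e'
      rw [← e', QuotientGroup.mk'_apply, ← QuotientGroup.mk_inv, ← QuotientGroup.mk_mul,
        ← QuotientGroup.mk_pow, (show Commute q b⁻¹ from hc _ q hq).mul_pow, pow_two, h.sq q hq,
        pow_two, ← mul_inv_rev, h.b2]
      simp
  have : Nontrivial (Γ ⧸ oddCore Γ) := Finite.one_lt_card_iff_nontrivial.1 (by omega)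
  have : IsKleinFour (Γ ⧸ oddCore Γ) := ⟨h1.symm, (Monoid.exponent_eq_prime_iff Nat.prime_two).2
    fun x hx => orderOf_eq_prime (h2 x) hx⟩
  have : IsKleinFour (Multiplicative (ZMod 2) × Multiplicative (ZMod 2)) :=
    ⟨by simp, by simp [Monoid.exponent_prod]⟩
  exact IsKleinFour.nonempty_mulEquiv

variable (h3 : (a * b) ^ 3 ∈ centralizer (π.ker : Set Γ)) (h1 : a * b ∉ centralizer (π.ker : Set Γ))
include h3 h1

theorem K_le : centralizer (π.ker : Set Γ) ≤ π.ker ⊔ zpowers (a * b) := fun x hx => by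
  rw [h.mem_R]
  rcases e : π x with j | j
  · exact ⟨j, rfl⟩
  · exfalso
    have k1 : (a * b) * x⁻¹ * (a * b)⁻¹ ∈ centralizer (π.ker : Set Γ) :=
      Normal.conj_mem inferInstance _ (inv_mem hx) _
    have k2 : x * ((a * b) * x⁻¹ * (a * b)⁻¹) * (a * b) ^ 2 ∈ π.ker := by
      rw [MonoidHom.mem_ker]
      simp only [map_mul, map_inv, e, h.pa, h.pb, sr_mul_sr, sub_sub_cancel, r_mul_sr,
        inv_r, sr_mul_r, inv_sr, one_def, pow_two, r_mul_r, r.injEq]
      ring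
    have k3 := (mul_mem_cancel_left (mul_mem hx k1)).1 (h.ker_le k2)
    rw [pow_succ] at h3
    exact h1 ((mul_mem_cancel_left k3).1 h3)

theorem K_eq : π.ker ⊔ oddCore Γ = centralizer (π.ker : Set Γ) :=
  le_antisymm (sup_le h.ker_le h.O_le) fun _ hx => h.inf_le ⟨hx, h.K_le h3 h1 hx⟩

theorem index_six : (π.ker.map (QuotientGroup.mk' (oddCore Γ))).index = 6 := by
  rw [index_bar, h.K_eq h3 h1, ← relIndex_mul_index (h.K_le h3 h1), h.index_R,
    show π.ker ⊔ zpowers (a * b) = centralizer (π.ker : Set Γ) ⊔ zpowers (a * b) from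
      le_antisymm (sup_le_sup_right h.ker_le _) (sup_le (h.K_le h3 h1) le_sup_right),
    relIndex_sup_zpowers, orderOf_eq_prime (p := 3)]
  · rwa [← QuotientGroup.mk_pow, QuotientGroup.eq_one_iff]
  · rwa [Ne, QuotientGroup.eq_one_iff]

omit [Finite Γ] h3 h1 in
theorem sq_bar : ∀ q ∈ π.ker.map (QuotientGroup.mk' (oddCore Γ)), q * q = 1 := by
  rintro _ ⟨q, hq, rfl⟩
  rw [← map_mul, h.sq q hq, map_one]

theorem cent_bar : centralizer (π.ker.map (QuotientGroup.mk' (oddCore Γ)) : Set (Γ ⧸ oddCore Γ)) ≤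
    π.ker.map (QuotientGroup.mk' (oddCore Γ)) := fun x hx => by
  obtain ⟨x, rfl⟩ := QuotientGroup.mk_surjective x
  refine mem_bar (h.K_eq h3 h1 ▸ fun q hq => ?_)
  have := hx q ⟨q, hq, rfl⟩
  rw [← QuotientGroup.mk_mul, ← QuotientGroup.mk_mul, QuotientGroup.eq] at this
  have e := h.inj (q := (q * x)⁻¹ * (x * q)) (by simp [MonoidHom.mem_ker.1 hq]) this
  exact inv_mul_eq_one.1 e

theorem sym_four (hQ : Nat.card π.ker = 4) : Nonempty (Γ ⧸ oddCore Γ ≃* Equiv.Perm (Fin 4)) :=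
  have := Normal.map (inferInstance : π.ker.Normal) _ (QuotientGroup.mk'_surjective (oddCore Γ))
  Amalgam.equiv_S4 (h.card_bar.trans hQ) (h.index_six h3 h1) h.sq_bar (h.cent_bar h3 h1)

theorem two_sym_four (hQ : Nat.card π.ker = 8) {c w : Γ} (hc : c ∈ π.ker) (hw : w ∈ π.ker)
    (hb : ∀ q ∈ π.ker, ⁅b, q⁆ ∈ zpowers c) (hwc : w ∉ zpowers c) (hz : w ∈ center Γ) :
    Nonempty (Γ ⧸ oddCore Γ ≃* Equiv.Perm (Fin 4) × Multiplicative (ZMod 2)) := by
  have := Normal.map (inferInstance : π.ker.Normal) _ (QuotientGroup.mk'_surjective (oddCore Γ))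
  set f := QuotientGroup.mk' (oddCore Γ) with hf
  have hb' : f b ∉ π.ker.map f := fun e => by
    have : b ∈ (π.ker.map f).comap f := e
    rw [comap_map_eq, hf, QuotientGroup.ker_mk', h.K_eq h3 h1] at this
    simpa [h.pb] using h.mem_R.1 (h.K_le h3 h1 this)
  have i2 : (π.ker.map f).relIndex (π.ker.map f ⊔ zpowers (f b)) = 2 := by
    rw [relIndex_sup_zpowers, orderOf_eq_prime (p := 2)]
    · rw [← QuotientGroup.mk_pow, pow_two, ← map_mul, h.b2, map_one, QuotientGroup.mk_one]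
    · rwa [Ne, QuotientGroup.eq_one_iff]
  have i3 := relIndex_mul_index (le_sup_left : π.ker.map f ≤ π.ker.map f ⊔ zpowers (f b))
  rw [i2, h.index_six h3 h1] at i3
  refine (Amalgam.equiv_two_S4 (T := π.ker.map f ⊔ zpowers (f b)) (R := (zpowers c).map f) (z := f w)
    (h.card_bar.trans hQ) (h.index_six h3 h1) h.sq_bar (h.cent_bar h3 h1) (by omega) (fun t ht => ?_)
    ⟨w, hw, rfl⟩ (mem_sup_left ⟨w, hw, rfl⟩) ?_ ?_).map fun e => e.trans MulEquiv.prodComm
  · by_cases e : t ∈ π.ker.map f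
    · rw [h.sq_bar t e]; exact one_mem _
    · obtain ⟨q, hq, e'⟩ := mul_mem_of_two i2 (mem_sup_right (mem_zpowers _)) ht hb' e
      refine ⟨_, hb q hq, ?_⟩
      rw [eq_comm, ← eq_inv_mul_iff_mul_eq] at e'
      rw [e', ← map_inv, ← map_mul, ← map_mul, commutatorElement_def,
        inv_eq_of_mul_eq_one_right h.b2, inv_eq_of_mul_eq_one_right (h.sq q hq), mul_assoc (b * q)]
  · rw [mem_center_iff]
    intro x
    obtain ⟨x, rfl⟩ := QuotientGroup.mk'_surjective _ x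
    rw [← map_mul, ← map_mul, mem_center_iff.1 hz]
  · rintro ⟨y, hy, e⟩
    rw [hf, QuotientGroup.mk'_apply, QuotientGroup.mk'_apply, QuotientGroup.eq] at e
    rw [← inv_mul_eq_one.1 (h.inj (mul_mem (inv_mem (zpowers_le.2 hc hy)) hw) e)] at hwc
    exact hwc hy

end DH

theorem cube_comm {p w q : Γ} (p2 : p * p = 1) (w2 : w * w = 1) (q2 : q * q = 1) (pw : Commute p w)
    (pq : Commute p q) (wq : Commute w q) (ap : Commute a p) (aw : Commute a w) (bw : Commute b w)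
    (bq : Commute b q) (aq : ⁅a, q⁆ = p * w) (pb : ⁅p, b⁆ = w * q) :
    a * b * p * (a * b)⁻¹ = q ∧ Commute ((a * b) ^ 3) p ∧ Commute ((a * b) ^ 3) q := by
  have e1 : a * q * a⁻¹ = p * w * q := by rw [← aq, commutatorElement_def, inv_mul_cancel_right]
  have e2 : b * p * b⁻¹ = p * w * q := by
    rw [mul_assoc p, ← pb, commutatorElement_def, inv_eq_of_mul_eq_one_right p2, ← mul_assoc,
      ← mul_assoc, ← mul_assoc, p2, one_mul]
  have c : ∀ x y : Γ, Commute x y → x * y * x⁻¹ = y := fun x y h => by rw [h.eq, mul_inv_cancel_right]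
  have u : ∀ v, a * b * v * (a * b)⁻¹ = a * (b * v * b⁻¹) * a⁻¹ := fun v => by group
  have k1 : a * b * p * (a * b)⁻¹ = q := by
    rw [u, e2, ← conj_mul, ← conj_mul, c _ _ ap, c _ _ aw, e1, ← mul_assoc, ← pow_two, pw.mul_pow,
      pow_two, pow_two, p2, w2, one_mul, one_mul]
  have k2 : a * b * q * (a * b)⁻¹ = p * w * q := by rw [u, c _ _ bq, e1]
  have k3 : a * b * (p * w * q) * (a * b)⁻¹ = p := by
    rw [← conj_mul, ← conj_mul, k1, k2, c _ _ (aw.mul_left bw), ← wq.eq,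
      (pw.symm.mul_left pq.symm).mul_right ((Commute.refl w).mul_left wq.symm) |>.mul_right
        (wq.mul_left (Commute.refl q)) |>.eq, mul_assoc p, mul_assoc p, ← pow_two, wq.mul_pow,
      pow_two, pow_two, w2, q2, one_mul, mul_one]
  have v : ∀ x, (a * b) ^ 3 * x * ((a * b) ^ 3)⁻¹ =
      a * b * (a * b * (a * b * x * (a * b)⁻¹) * (a * b)⁻¹) * (a * b)⁻¹ := fun x => by
    generalize a * b = t
    simp only [pow_succ, pow_zero, one_mul, mul_inv_rev, mul_assoc]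
  refine ⟨k1, mul_inv_eq_iff_eq_mul.1 ?_, mul_inv_eq_iff_eq_mul.1 ?_⟩
  · rw [v, k1, k2, k3]
  · rw [v, k2, k3, k1]

end Cfsg.Lib.SimsChain
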